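import Cfsg.Agent.H32.P3Pl2
import Cfsg.Agent.H29.PslAut2

/-! Transvection groups of `PSL₃(F)` in characteristic two. -/

set_option autoImplicit false

namespace Cfsg.Agent.H32.P3

open Subgroup Cfsg.Agent.SR3 Cfsg.Agent.H29 Matrix
open scoped commutatorElement

variable {F : Type*} [Field F]

local notation "𝐏" => Matrix.ProjectiveSpecialLinearGroup (Fin 3) F
local notation "𝐒" => Matrix.SpecialLinearGroup (Fin 3) F
local notation "𝐌" => Matrix (Fin 3) (Fin 3) F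

variable {u u' w w' x : Fin 3 → F}

theorem three : 3 ≤ Fintype.card (Fin 3) := by simp
theorem two' : 2 ≤ Fintype.card (Fin 3) := by simp

theorem cj_TP (g : 𝐒) (u : Fin 3 → F) :
    cj (QuotientGroup.mk g : 𝐏) (TP u) = TP ((g : 𝐌) *ᵥ u) := TP_conj g u

theorem cj_TH (g : 𝐒) (w : Fin 3 → F) :
    cj (QuotientGroup.mk g : 𝐏) (TH w) = TH (w ᵥ* ((g⁻¹ : 𝐒) : 𝐌)) := by
  refine le_antisymm ?_ ?_
  · rintro _ ⟨_, ⟨u, hu, rfl⟩, rfl⟩
    exact ⟨_, by rw [dot_conj, hu], T_conj g hu⟩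
  · rintro _ ⟨u, hu, rfl⟩
    have e : (g : 𝐌) *ᵥ (((g⁻¹ : 𝐒) : 𝐌) *ᵥ u) = u := by rw [mulVec_mulVec, sl_mul_inv, one_mulVec]
    have h1 : w ⬝ᵥ (((g⁻¹ : 𝐒) : 𝐌) *ᵥ u) = 0 := by rw [← dot_conj g, e, hu]
    have := T_conj g h1
    rw [e] at this
    exact ⟨_, ⟨_, h1, rfl⟩, this⟩

theorem TP_eq (hu : u ≠ 0) (h : TP u = TP u') : ∃ c : F, c ≠ 0 ∧ u = c • u' :=
  TP_le_TP two' hu h.le

theorem T_mem_TP (h : w ⬝ᵥ x = 0) (hw : w ≠ 0) (hu : w ⬝ᵥ u = 0) :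
    T x w ∈ TP u ↔ ∃ d : F, x = d • u :=
  ⟨exists_smul_of_T_mem_TP h hw, by
    rintro ⟨d, rfl⟩; exact ⟨d • w, by simp [hu], T_smul hu d⟩⟩

theorem inc_iff (hu : u ≠ 0) (hw : w ≠ 0) : TP u ⊓ TH w ≠ ⊥ ↔ w ⬝ᵥ u = 0 := by
  refine ⟨fun h => ?_, fun h => inc_of_mem ⟨w, h, rfl⟩ ⟨u, h, rfl⟩ (T_ne_one h hu hw)⟩
  obtain ⟨_, a, ⟨x, hx, rfl⟩, c⟩ := exists_of_inc h
  obtain ⟨d, rfl⟩ := exists_smul_of_T_mem_TP hx hw a
  have : d ≠ 0 := by rintro rfl; exact c (by rw [zero_smul, T_zero_left])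
  simpa [this] using hx

theorem smul_of_cross (hu : u ≠ 0) (h : u ⨯₃ x = 0) : ∃ c : F, x = c • u := by
  refine exists_smul_of_perp hu fun y hy => ?_
  obtain ⟨z, hz⟩ := exists_dot_one hu
  have h1 := cross_cross_eq_smul_sub_smul' z u x
  rw [h, map_zero, dotProduct_comm u z, hz, one_smul] at h1
  rw [← sub_eq_zero.1 h1.symm]
  simp [hy]

theorem par_or_par (hu : u ≠ 0) (hw : w ≠ 0) (a : w ⬝ᵥ u = 0) (b : w ⬝ᵥ u' = 0)
    (c : w' ⬝ᵥ u = 0) (d : w' ⬝ᵥ u' = 0) : (∃ k : F, u' = k • u) ∨ ∃ k : F, w' = k • w := by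
  by_cases h : w ⨯₃ w' = 0
  · exact Or.inr (smul_of_cross hw h)
  obtain ⟨k, rfl⟩ := smul_of_cross (x := u) h (by rw [cross_cross_eq_smul_sub_smul, a, c]; simp)
  obtain ⟨k', rfl⟩ := smul_of_cross (x := u') h (by rw [cross_cross_eq_smul_sub_smul, b, d]; simp)
  have : k ≠ 0 := by rintro rfl; exact hu (zero_smul _ _)
  exact Or.inl ⟨k' * k⁻¹, by rw [smul_smul, inv_mul_cancel_right₀ this]⟩

theorem vmv_of_sq {N : 𝐌} (h : N * N = 0) : ∃ u w, w ⬝ᵥ u = 0 ∧ N = vecMulVec u w := by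
  have h1 : LinearMap.range (mulVecLin N) ≤ LinearMap.ker (mulVecLin N) := by
    rintro _ ⟨y, rfl⟩; simp [h]
  have h2 := LinearMap.finrank_range_add_finrank_ker (mulVecLin N)
  have h3 := Submodule.finrank_mono h1
  rw [Module.finrank_fin_fun] at h2
  obtain ⟨⟨u, hu⟩, h4⟩ := finrank_le_one_iff.1
    (by omega : Module.finrank F (LinearMap.range (mulVecLin N)) ≤ 1)
  choose c hc using fun j => h4 ⟨N *ᵥ Pi.single j 1, _, rfl⟩
  have e : N = vecMulVec u c := by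
    ext i j
    have := congrFun (congrArg Subtype.val (hc j)) i
    simp only [SetLike.val_smul, Pi.smul_apply, smul_eq_mul, mulVec_single_one] at this
    rw [vecMulVec_apply, mul_comm, this]; rfl
  by_cases hu0 : u = 0
  · exact ⟨u, c, by simp [hu0], e⟩
  · have h5 : N *ᵥ u = 0 := h1 hu
    rw [e, vmv_mulVec, smul_eq_zero] at h5
    exact ⟨u, c, h5.resolve_right hu0, e⟩

variable [CharP F 2]

theorem T_of_sq {z : 𝐏} (h : z * z = 1) : ∃ u w, w ⬝ᵥ u = 0 ∧ z = T u w := by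
  obtain ⟨A, rfl⟩ := QuotientGroup.mk_surjective z
  obtain ⟨r, hr⟩ := psl_mk_eq_iff.1 (h.symm : (QuotientGroup.mk 1 : 𝐏) = QuotientGroup.mk (A * A))
  have h1 : r ^ 3 = 1 := by simpa using (congrArg det hr).symm
  replace hr : (A : 𝐌) * (A : 𝐌) = r • 1 := hr
  have h2 : (r • (A : 𝐌) + 1) * (r • (A : 𝐌) + 1) = 0 := by
    rw [add_mul, mul_add, smul_mul_smul_comm, hr, smul_smul, ← pow_two, ← pow_succ, h1, one_smul,
      mul_one, one_mul]
    ext i j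
    simp only [Matrix.add_apply, Matrix.zero_apply]
    rw [add_comm _ ((r • (A : 𝐌)) i j), CharTwo.add_self_eq_zero]
  obtain ⟨u, w, hw, e⟩ := vmv_of_sq h2
  refine ⟨u, w, hw, psl_mk_eq_iff.2 ⟨r, ?_⟩⟩
  rw [tv_coe hw, ← e, add_comm, add_assoc, CharTwo.add_self_eq_zero, add_zero]

/-- A swap in the last two coordinates. -/
def sw (m : F) (hm : m ≠ 0) : 𝐒 := ⟨!![1, 0, 0; 0, 0, m; 0, m⁻¹, 0], by
  simp [det_fin_three, hm, CharTwo.neg_eq]⟩

/-- A swap in the first two coordinates. -/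
def sw0 : 𝐒 := ⟨!![0, 1, 0; 1, 0, 0; 0, 0, 1], by simp [det_fin_three, CharTwo.neg_eq]⟩

omit [CharP F 2] in
/-- A diagonal matrix. -/
def dg (a b c : F) (h : a * b * c = 1) : 𝐒 := ⟨diagonal ![a, b, c], by
  simp [Fin.prod_univ_three, h]⟩

omit [CharP F 2] in
theorem dg_mulVec {a b c : F} (h : a * b * c = 1) (y : Fin 3 → F) :
    (dg a b c h : 𝐌) *ᵥ y = ![a * y 0, b * y 1, c * y 2] := by
  ext i; fin_cases i <;> simp [dg, mulVec_diagonal]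

omit [CharP F 2] in
theorem dg_mul {a b c a' b' c' : F} (h : a * b * c = 1) (h' : a' * b' * c' = 1) :
    dg a b c h * dg a' b' c' h' = dg (a * a') (b * b') (c * c')
      (by linear_combination (a' * b' * c') * h + h') :=
  Subtype.ext (by
    change diagonal ![a, b, c] * diagonal ![a', b', c'] = diagonal ![a * a', b * b', c * c']
    rw [diagonal_mul_diagonal]; congr 1; ext i; fin_cases i <;> simp)

omit [CharP F 2] in
theorem dg_one {a b c : F} (h : a * b * c = 1) (ha : a = 1) (hb : b = 1) (hc : c = 1) :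
    dg a b c h = 1 := Subtype.ext (by
  change diagonal ![a, b, c] = 1
  rw [← diagonal_one]; congr 1; ext i; fin_cases i <;> simp [ha, hb, hc])

omit [CharP F 2] in
theorem dg_inv {a b c : F} (h : a * b * c = 1) : (dg a b c h)⁻¹ = dg (b * c) (a * c) (a * b)
    (by linear_combination (a * b * c + 1) * h) :=
  inv_eq_of_mul_eq_one_right (by
    rw [dg_mul]
    exact dg_one _ (by linear_combination h) (by linear_combination h) (by linear_combination h))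

omit [CharP F 2] in
theorem vecMul_dg {a b c : F} (h : a * b * c = 1) (y : Fin 3 → F) :
    y ᵥ* (dg a b c h : 𝐌) = ![a * y 0, b * y 1, c * y 2] := by
  ext i; fin_cases i <;> simp [dg, vecMul_diagonal, mul_comm]

theorem sw_mul (m m' : F) (hm : m ≠ 0) (hm' : m' ≠ 0) :
    sw m hm * sw m' hm' = dg 1 (m * m'⁻¹) (m⁻¹ * m') (by field_simp) := Subtype.ext (by
  change !![1, 0, 0; 0, 0, m; 0, m⁻¹, 0] * !![1, 0, 0; 0, 0, m'; 0, m'⁻¹, 0] =
    diagonal ![1, m * m'⁻¹, m⁻¹ * m']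
  ext i j; fin_cases i <;> fin_cases j <;> simp [mul_apply, Fin.sum_univ_three])

theorem sw_sq (m : F) (hm : m ≠ 0) :
    (QuotientGroup.mk (sw m hm) : 𝐏) * QuotientGroup.mk (sw m hm) = 1 := by
  rw [← QuotientGroup.mk_mul, sw_mul, dg_one _ rfl (mul_inv_cancel₀ hm) (inv_mul_cancel₀ hm),
    QuotientGroup.mk_one]

theorem sw_nm (m : F) (hm : m ≠ 0) : (QuotientGroup.mk (sw m hm) : 𝐏) ∈ nm (TP ![1, 0, 0]) := by
  rw [mem_nm_iff, cj_TP]; congr 1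
  ext i; fin_cases i <;> simp [sw, mulVec, dotProduct, Fin.sum_univ_three]

omit [CharP F 2] in
theorem e_ne : (![1, 0, 0] : Fin 3 → F) ≠ 0 ∧ (![0, 0, 1] : Fin 3 → F) ≠ 0 :=
  ⟨fun h => by simpa using congrFun h 0, fun h => by simpa using congrFun h 2⟩

omit [CharP F 2] in
theorem mem_TP_e (h : ![0, 0, 1] ⬝ᵥ x = 0) : T x ![0, 0, 1] ∈ TP ![1, 0, 0] ↔ x 1 = 0 := by
  rw [T_mem_TP h e_ne.2 (by simp)]
  refine ⟨by rintro ⟨d, rfl⟩; simp, fun h1 => ⟨x 0, ?_⟩⟩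
  ext i; fin_cases i
  · simp
  · simpa using h1
  · simpa [dotProduct, Fin.sum_univ_three] using h

omit [CharP F 2] in
theorem borel_act {g : 𝐏} (h1 : g ∈ nm (TP ![1, 0, 0])) (h2 : g ∈ nm (TH ![0, 0, 1])) :
    ∃ c : F, ∀ x, ![0, 0, 1] ⬝ᵥ x = 0 → ∃ x', ![0, 0, 1] ⬝ᵥ x' = 0 ∧
      g * T x ![0, 0, 1] * g⁻¹ = T x' ![0, 0, 1] ∧ x' 1 = c * x 1 := by
  obtain ⟨A, rfl⟩ := QuotientGroup.mk_surjective g
  rw [mem_nm_iff, cj_TP] at h1
  rw [mem_nm_iff, cj_TH] at h2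
  obtain ⟨a, -, ha⟩ := TP_eq (sl_mulVec_ne_zero A e_ne.1) h1
  obtain ⟨b, hb0, hb⟩ := TH_le_TH two' e_ne.2 h2.ge
  refine ⟨b * A 1 1, fun x hx => ?_⟩
  have h3 : ![0, 0, 1] ⬝ᵥ ((A : 𝐌) *ᵥ x) = 0 := by
    have := dot_conj A x ![0, 0, 1]
    rwa [hb, hx, smul_dotProduct, smul_eq_zero, or_iff_right hb0] at this
  refine ⟨b • ((A : 𝐌) *ᵥ x), by rw [dotProduct_smul, h3, smul_zero],
    by rw [T_conj A hx, hb, T_smul h3], ?_⟩
  have h4 : (A : 𝐌) 1 0 = 0 := by simpa [mulVec, dotProduct, Fin.sum_univ_three] using congrFun ha 1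
  have h5 : x 2 = 0 := by simpa [dotProduct, Fin.sum_univ_three] using hx
  simp [mulVec, dotProduct, Fin.sum_univ_three, h4, h5, mul_assoc]

theorem tor_base [Finite F] : Tor (⊤ : Subgroup 𝐏) (TP ![1, 0, 0]) (TH ![0, 0, 1]) where
  t0 := by
    rintro g ⟨⟨-, g1⟩, g2⟩ h ⟨⟨-, h1⟩, h2⟩ _ ⟨x, hx, rfl⟩
    obtain ⟨a, ha⟩ := borel_act g1 g2
    obtain ⟨b, hb⟩ := borel_act h1 h2
    obtain ⟨a', ha'⟩ := borel_act (inv_mem g1) (inv_mem g2)
    obtain ⟨b', hb'⟩ := borel_act (inv_mem h1) (inv_mem h2)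
    have key : ∀ {k : 𝐏} {c c' : F}, (∀ x, ![0, 0, 1] ⬝ᵥ x = 0 → ∃ x', ![0, 0, 1] ⬝ᵥ x' = 0 ∧
        k * T x ![0, 0, 1] * k⁻¹ = T x' ![0, 0, 1] ∧ x' 1 = c * x 1) →
        (∀ x, ![0, 0, 1] ⬝ᵥ x = 0 → ∃ x', ![0, 0, 1] ⬝ᵥ x' = 0 ∧
        k⁻¹ * T x ![0, 0, 1] * k⁻¹⁻¹ = T x' ![0, 0, 1] ∧ x' 1 = c' * x 1) → c * c' = 1 := by
      intro k c c' p q
      obtain ⟨y, y1, y2, y3⟩ := q ![0, 1, 0] (by simp)
      obtain ⟨y', z1, z2, z3⟩ := p y y1
      rw [← y2, inv_inv, ← mul_assoc, ← mul_assoc, mul_inv_cancel, one_mul,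
        mul_inv_cancel_right] at z2
      have := vmv_right_cancel e_ne.2 (T_inj (by simp) z1 z2)
      rw [← this, y3] at z3
      simpa using z3.symm
    obtain ⟨x1, p1, q1, r1⟩ := hb' x hx
    obtain ⟨x2, p2, q2, r2⟩ := ha' x1 p1
    obtain ⟨x3, p3, q3, r3⟩ := hb x2 p2
    obtain ⟨x4, p4, q4, r4⟩ := ha x3 p3
    have e : ⁅⁅g, h⁆, T x ![0, 0, 1]⁆ = T (x4 + x) ![0, 0, 1] := by
      rw [T_add_left p4 hx, ← q4, ← q3, ← q2, ← q1, commutatorElement_def, commutatorElement_def,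
        inv_of_sq (x := T x _) (by rw [← T_add_left hx hx, CharTwo.add_self_eq_zero, T_zero_left])]
      group
    rw [e, mem_TP_e (by rw [dotProduct_add, p4, hx, add_zero]), Pi.add_apply, r4, r3, r2, r1,
      CharTwo.add_eq_zero]
    linear_combination (b * b' * x 1) * key ha ha' + x 1 * key hb hb'
  t1 := by
    rintro _ ⟨x, hx, rfl⟩ h1 _ ⟨x', hx', rfl⟩ h2
    rw [mem_TP_e hx] at h1
    rw [mem_TP_e hx'] at h2
    have hc : ringChar F = 2 := ringChar.eq F 2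
    obtain ⟨a, ha⟩ := FiniteField.isSquare_of_char_two hc (x' 1 / x 1)
    obtain ⟨m, rfl⟩ := FiniteField.isSquare_of_char_two hc a
    have hm : m ≠ 0 := by rintro rfl; exact div_ne_zero h2 h1 (by simpa using ha)
    have h5 : x 2 = 0 := by simpa [dotProduct, Fin.sum_univ_three] using hx
    have e : ∀ y : Fin 3 → F, y ᵥ* (((sw m hm * sw 1 one_ne_zero)⁻¹ : 𝐒) : 𝐌) =
        ![y 0, m⁻¹ * y 1, m * y 2] := fun y => by
      rw [sw_mul, dg_inv, vecMul_dg]; simp [hm]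
    have e' : ∀ y : Fin 3 → F, ((sw m hm * sw 1 one_ne_zero : 𝐒) : 𝐌) *ᵥ y =
        ![y 0, m * y 1, m⁻¹ * y 2] := fun y => by
      rw [sw_mul, dg_mulVec]; simp
    have e2 : ∀ y : Fin 3 → F, y 2 = 0 → (QuotientGroup.mk (sw m hm * sw 1 one_ne_zero) : 𝐏) *
        T y ![0, 0, 1] * (QuotientGroup.mk (sw m hm * sw 1 one_ne_zero))⁻¹ =
        T ![m * y 0, m * m * y 1, 0] ![0, 0, 1] := fun y hy => by
      rw [T_conj _ (by simpa [dotProduct, Fin.sum_univ_three] using hy), e, e']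
      refine T_congr (by simp [hy]) (by simp) ?_
      ext i j; fin_cases i <;> fin_cases j <;> simp [hy] <;> ring
    refine ⟨_, ⟨trivial, sw_nm m hm⟩, _, ⟨trivial, sw_nm 1 one_ne_zero⟩, sw_sq _ _, sw_sq _ _,
      ?_, ?_⟩
    · rw [← QuotientGroup.mk_mul, mem_nm_iff, cj_TH, e, ← TH_smul (w := ![0, 0, 1]) hm]
      congr 1; ext i; fin_cases i <;> simp
    · rw [← QuotientGroup.mk_mul, pow_two, _root_.mul_inv_rev, ← mul_assoc, mul_assoc _ _ (T x _),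
        mul_assoc _ (_ * T x _), e2 x h5, e2 _ rfl,
        inv_of_sq (x := T x' _) (by rw [← T_add_left hx' hx', CharTwo.add_self_eq_zero, T_zero_left]),
        ← T_add_left (by simp) hx', mem_TP_e (by rw [dotProduct_add, hx']; simp), Pi.add_apply,
        CharTwo.add_eq_zero]
      rw [div_eq_iff h1] at ha
      simp [ha]; ring

end Cfsg.Agent.H32.P3
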