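import Cfsg.Agent.H32.P3Mod
import Cfsg.Agent.S0243
import Cfsg.Agent.S0249

/-! `PSL₃(2ⁿ)` satisfies the axioms. -/

set_option autoImplicit false

namespace Cfsg.Agent.H32.P3

open Subgroup Cfsg.Agent.SR3 Cfsg.Agent.H29 Matrix
open scoped commutatorElement

variable {F : Type*} [Field F]

local notation "𝐏" => Matrix.ProjectiveSpecialLinearGroup (Fin 3) F
local notation "𝐒" => Matrix.SpecialLinearGroup (Fin 3) F
local notation "𝐌" => Matrix (Fin 3) (Fin 3) F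

variable {u u' w w' x : Fin 3 → F}

/-- The centre groups. -/
def PV (F : Type*) [Field F] : Set (Subgroup (Matrix.ProjectiveSpecialLinearGroup (Fin 3) F)) :=
  {V | ∃ u, u ≠ 0 ∧ V = TP u}

/-- The axis groups. -/
def PW (F : Type*) [Field F] : Set (Subgroup (Matrix.ProjectiveSpecialLinearGroup (Fin 3) F)) :=
  {V | ∃ w, w ≠ 0 ∧ V = TH w}

theorem flag_tr (hu : u ≠ 0) (hw : w ≠ 0) (hu' : u' ≠ 0) (hw' : w' ≠ 0) (h : w ⬝ᵥ u = 0)
    (h' : w' ⬝ᵥ u' = 0) : ∃ g : 𝐏, cj g (TP u) = TP u' ∧ cj g (TH w) = TH w' := by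
  obtain ⟨g, hg⟩ := isConj_iff.1 (isConj_T three hu hw hu' hw' h h')
  obtain ⟨A, rfl⟩ := QuotientGroup.mk_surjective g
  rw [T_conj A h] at hg
  obtain ⟨c, c0, e1, e2⟩ := vmv_eq (sl_mulVec_ne_zero A hu) (sl_vecMul_ne_zero A⁻¹ hw)
    (T_inj (by rw [dot_conj, h]) h' hg)
  exact ⟨_, by rw [cj_TP, e1, TP_smul c0], by rw [cj_TH, e2, TH_smul c0]⟩

theorem card_TP [Finite F] (hu : u ≠ 0) : Nat.card (TP u) = Nat.card F * Nat.card F := by
  have e : Nat.card (perp u) = Nat.card (TP u) := by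
    refine Nat.card_eq_of_bijective (fun w => ⟨T u w, w, (dotProduct_comm _ _).trans w.2, rfl⟩)
      ⟨fun a b hab => Subtype.ext (vmv_left_cancel hu (T_inj ((dotProduct_comm _ _).trans a.2)
        ((dotProduct_comm _ _).trans b.2) (congrArg Subtype.val hab))), ?_⟩
    rintro ⟨_, w, hw, rfl⟩
    exact ⟨⟨w, (dotProduct_comm _ _).trans hw⟩, rfl⟩
  have h1 := LinearMap.finrank_range_add_finrank_ker (dotProductBilin F F u)
  have h2 : LinearMap.range (dotProductBilin F F u) = ⊤ := by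
    obtain ⟨z, hz⟩ := exists_dot_one hu
    refine eq_top_iff.2 fun c _ => ⟨c • z, ?_⟩
    simp [dotProduct_comm u z, hz]
  rw [h2, finrank_top, Module.finrank_self, Module.finrank_fin_fun] at h1
  rw [← e, Module.natCard_eq_pow_finrank (K := F), perp, (by omega : Module.finrank F
    (LinearMap.ker (dotProductBilin F F u)) = 2), pow_two]

theorem card_inf (hu : u ≠ 0) (hw : w ≠ 0) (h : w ⬝ᵥ u = 0) :
    Nat.card ↥(TP u ⊓ TH w) = Nat.card F := by
  have h1 : ∀ c : F, w ⬝ᵥ c • u = 0 := fun c => by simp [h]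
  refine (Nat.card_eq_of_bijective (fun c => ⟨T (c • u) w, (T_mem_TP (h1 c) hw h).2 ⟨c, rfl⟩,
    _, h1 c, rfl⟩) ⟨fun a b hab => smul_left_injective F hu (vmv_right_cancel hw
      (T_inj (h1 a) (h1 b) (congrArg Subtype.val hab))), ?_⟩).symm
  rintro ⟨_, a, x, hx, rfl⟩
  obtain ⟨c, rfl⟩ := (T_mem_TP hx hw h).1 a
  exact ⟨c, rfl⟩

theorem cj_T (h : w ⬝ᵥ x = 0) (u : Fin 3 → F) : cj (T x w) (TP u) = TP (u + (w ⬝ᵥ u) • x) := by
  rw [← tv_mulVec h]; exact cj_TP _ _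

/-- A one-dimensional torus. -/
def tor1 : Fˣ →* 𝐏 := (QuotientGroup.mk' _).comp
  { toFun := fun a => dg (a : F) (a⁻¹ : Fˣ) 1 (by simp)
    map_one' := dg_one _ rfl (by simp) rfl
    map_mul' := fun a b => by rw [dg_mul]; congr 1 <;> simp [mul_comm] }

theorem tor1_apply (a : Fˣ) : tor1 a = (QuotientGroup.mk (dg (a : F) (a⁻¹ : Fˣ) 1 (by simp)) : 𝐏) :=
  rfl

theorem tor1_inj : Function.Injective (tor1 : Fˣ →* 𝐏) := (injective_iff_map_eq_one _).2 fun a ha => by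
  obtain ⟨r, hr⟩ := psl_mk_eq_iff.1 (ha.symm : (QuotientGroup.mk 1 : 𝐏) = QuotientGroup.mk _)
  exact Units.ext ((congrFun (congrFun hr 0) 0).trans (congrFun (congrFun hr 2) 2).symm)

variable [CharP F 2]

theorem sw0_dg {a b c : F} (h : a * b * c = 1) :
    sw0 * dg a b c h = dg b a c (by rwa [mul_comm b]) * sw0 := Subtype.ext (by
  change !![0, 1, 0; 1, 0, 0; 0, 0, 1] * diagonal ![a, b, c] =
    diagonal ![b, a, c] * !![0, 1, 0; 1, 0, 0; 0, 0, 1]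
  ext i j; fin_cases i <;> fin_cases j <;> simp)

theorem T_sq (h : w ⬝ᵥ u = 0) : T u w * T u w = 1 := by
  rw [← T_add_left h h, CharTwo.add_self_eq_zero, T_zero_left]

theorem pl0 [Finite F] {n : ℕ} (hF : Nat.card F = 2 ^ n) : Pl0 n (⊤ : Subgroup 𝐏) (PV F) (PW F) where
  le := fun _ _ => le_top
  sq := by rintro _ ⟨u, -, rfl⟩ _ ⟨w, hw, rfl⟩; exact T_sq hw
  card := by rintro _ ⟨u, hu, rfl⟩; rw [card_TP hu, hF]
  conj := by
    rintro _ ⟨u, hu, rfl⟩ g -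
    obtain ⟨A, rfl⟩ := QuotientGroup.mk_surjective g
    exact ⟨_, sl_mulVec_ne_zero A hu, cj_TP A u⟩
  trans := by
    rintro _ ⟨u, hu, rfl⟩ _ ⟨u', hu', rfl⟩
    obtain ⟨w, hw, h, h'⟩ := exists_perp_two three u u'
    obtain ⟨g, e, -⟩ := flag_tr hu hw hu' hw h h'
    exact ⟨g, trivial, e⟩
  cover := fun z _ h => by
    obtain ⟨u, w, hw, rfl⟩ := T_of_sq h
    by_cases hu : u = 0
    · exact ⟨_, ⟨_, e_ne.1, rfl⟩, by rw [hu, T_zero_left]; exact one_mem _⟩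
    · exact ⟨_, ⟨u, hu, rfl⟩, w, hw, rfl⟩
  disj := by
    rintro _ ⟨u, hu, rfl⟩ _ ⟨u', hu', rfl⟩ hi
    obtain ⟨_, ⟨w, hw, rfl⟩, a, b⟩ := exists_of_inc hi
    obtain ⟨d, rfl⟩ := exists_smul_of_T_mem_TP hw (by rintro rfl; exact b (T_zero_right _)) a
    exact TP_smul (by rintro rfl; exact hu (zero_smul _ _))
  nmem := by rintro _ ⟨u, hu, rfl⟩ ⟨w, -, e⟩; exact not_TP_le_TH three hu e.le
  inf := by
    rintro _ ⟨u, hu, rfl⟩ _ ⟨w, hw, rfl⟩ hi
    rw [card_inf hu hw ((inc_iff hu hw).1 hi), hF]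
  join := by
    rintro _ ⟨u, hu, rfl⟩ _ ⟨u', hu', rfl⟩
    obtain ⟨w, hw, h, h'⟩ := exists_perp_two three u u'
    exact ⟨_, ⟨w, hw, rfl⟩, (inc_iff hu hw).2 h, (inc_iff hu' hw).2 h'⟩
  uniq := by
    rintro _ ⟨u, hu, rfl⟩ _ ⟨u', hu', rfl⟩ _ ⟨w, hw, rfl⟩ _ ⟨w', hw', rfl⟩ a b c d
    rcases par_or_par hu hw ((inc_iff hu hw).1 a) ((inc_iff hu' hw).1 b) ((inc_iff hu hw').1 c)
      ((inc_iff hu' hw').1 d) with ⟨k, rfl⟩ | ⟨k, rfl⟩
    · exact Or.inl (TP_smul (by rintro rfl; exact hu' (zero_smul _ _))).symm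
    · exact Or.inr (TH_smul (by rintro rfl; exact hw' (zero_smul _ _))).symm
  norm := by
    rintro _ ⟨u, hu, rfl⟩ _ ⟨w, hw, rfl⟩ _ ⟨x, hx, rfl⟩ z1
    rw [inc_iff hu hw, mem_nm_iff, cj_T hx]
    refine ⟨fun e => by_contra fun h => ?_, fun h => by rw [h, zero_smul, add_zero]⟩
    obtain ⟨c, -, hc⟩ := TP_eq hu e.symm
    have h1 := congrArg (w ⬝ᵥ ·) hc
    simp only [dotProduct_smul, dotProduct_add, hx, smul_eq_mul, mul_zero, add_zero] at h1
    rw [mul_left_eq_self₀.1 h1.symm |>.resolve_right h, one_smul, left_eq_add, smul_eq_zero,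
      or_iff_right h] at hc
    exact z1 (by rw [hc, T_zero_left])
  reg := by
    rintro _ ⟨w, hw, rfl⟩ _ ⟨u, hu, rfl⟩ _ ⟨u', hu', rfl⟩ a b
    have h : w ⬝ᵥ u ≠ 0 := fun e => (inc_iff hu hw).2 e a
    have h' : w ⬝ᵥ u' ≠ 0 := fun e => (inc_iff hu' hw).2 e b
    have h1 : w ⬝ᵥ ((w ⬝ᵥ u')⁻¹ • u' - (w ⬝ᵥ u)⁻¹ • u) = 0 := by simp [h, h']
    refine ⟨_, ⟨_, h1, rfl⟩, ?_⟩
    rw [cj_T h1, smul_sub, smul_inv_smul₀ h, add_sub_cancel, TP_smul h, TP_smul (inv_ne_zero h')]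
  faith := fun g _ h => by
    obtain ⟨A, rfl⟩ := QuotientGroup.mk_surjective g
    refine psl_eq_of_points (b := 1) fun y hy => ?_
    have := h _ ⟨y, hy, rfl⟩
    rw [mem_nm_iff, cj_TP] at this
    obtain ⟨c, -, e⟩ := TP_eq (sl_mulVec_ne_zero A hy) this
    exact ⟨c, by simpa using e⟩
  tor := by
    rintro _ ⟨u, hu, rfl⟩ _ ⟨w, hw, rfl⟩ hi
    obtain ⟨g, e1, e2⟩ := flag_tr e_ne.1 e_ne.2 hu hw (by simp) ((inc_iff hu hw).1 hi)
    have := (tor_base (F := F)).map (f := (MulAut.conj g).toMonoidHom) (MulAut.conj g).injective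
    rw [map_top_of_surjective _ (MulAut.conj g).surjective] at this
    exact e1 ▸ e2 ▸ this
  tor2 := by
    have e2 : cj (QuotientGroup.mk sw0 : 𝐏) (TP ![1, 0, 0]) = TP ![0, 1, 0] := by
      rw [cj_TP]; congr 1
      ext i; fin_cases i <;> simp [sw0, mulVec, dotProduct, Fin.sum_univ_three]
    have h0 : (![0, 1, 0] : Fin 3 → F) ≠ 0 := fun h => by simpa using congrFun h 1
    refine ⟨_, ⟨_, e_ne.1, rfl⟩, tor1.range, le_top, QuotientGroup.mk sw0, trivial, fun e => ?_,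
      ?_, ?_, ?_, ?_, fun hn => ?_⟩
    · obtain ⟨c, -, hc⟩ := TP_eq h0 (e2.symm.trans e)
      simpa using congrFun hc 1
    · rw [← Nat.card_congr (MonoidHom.ofInjective tor1_inj).toEquiv, Nat.card_units, ← hF]
      exact Nat.sub_add_cancel Nat.card_pos
    · rintro _ ⟨a, rfl⟩
      rw [mem_nm_iff, tor1_apply, cj_TP, dg_mulVec, ← TP_smul (u := ![1, 0, 0]) a.ne_zero]
      simp
    · rintro _ ⟨a, rfl⟩
      rw [← map_inv, tor1_apply, tor1_apply, ← QuotientGroup.mk_mul, sw0_dg, QuotientGroup.mk_mul,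
        mul_inv_cancel_right]
      simp
    · rintro _ ⟨a, rfl⟩ a1 _ ⟨y, hy, rfl⟩ _ ⟨w, hw, rfl⟩ i1 i2 i3 i4
      rw [e2] at i2 ⊢
      rw [inc_iff e_ne.1 hw] at i1
      rw [inc_iff h0 hw] at i2
      rw [inc_iff hy hw] at i3
      rw [mem_nm_iff, tor1_apply, cj_TP] at i4
      obtain ⟨c, -, hc⟩ := TP_eq (sl_mulVec_ne_zero _ hy) i4
      rw [dg_mulVec] at hc
      simp only [dotProduct, Fin.sum_univ_three, Fin.isValue, cons_val_zero, mul_one, cons_val_one,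
        mul_zero, add_zero, cons_val, zero_add] at i1 i2 i3
      have w2 : w 2 ≠ 0 := fun e => hw (by ext i; fin_cases i <;> simp [i1, i2, e])
      have y2 : y 2 = 0 := by simpa [i1, i2, w2] using i3
      by_cases y1 : y 1 = 0
      · have y0 : y 0 ≠ 0 := fun e => hy (by ext i; fin_cases i <;> simp [y1, y2, e])
        left; rw [← TP_smul (u := ![1, 0, 0]) y0]; congr 1
        ext i; fin_cases i <;> simp [y1, y2]
      by_cases y0 : y 0 = 0
      · right; rw [← TP_smul (u := ![0, 1, 0]) y1]; congr 1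
        ext i; fin_cases i <;> simp [y0, y2]
      have c0 : (a : F) = c := by simpa [y0] using congrFun hc 0
      have c1 : (a : F)⁻¹ = c := by simpa [y1] using congrFun hc 1
      have h3 : (a : F) ^ 2 = 1 ^ 2 := by
        rw [one_pow, pow_two]; nth_rw 2 [c0]; rw [← c1, mul_inv_cancel₀ a.ne_zero]
      refine (a1 ?_).elim
      rw [Units.ext (u := a) (v := 1) (by simpa using CharTwo.sq_injective h3), map_one]
    · have : Fact (Nat.Prime 3) := ⟨Nat.prime_three⟩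
      obtain ⟨k, rfl⟩ := hn
      obtain ⟨a, ha⟩ := exists_prime_orderOf_dvd_card' (G := Fˣ) 3 (by
        rw [Nat.card_units, hF, ← two_mul, pow_mul]
        simpa using Nat.sub_dvd_pow_sub_pow 4 1 k)
      have h3 : (a : F) ^ 3 = 1 := by
        rw [← Units.val_pow_eq_pow_val, ← ha, pow_orderOf_eq_one, Units.val_one]
      have e : (QuotientGroup.mk (sw (a : F) a.ne_zero) : 𝐏) * QuotientGroup.mk (sw 1 one_ne_zero)
          = tor1 a := by
        rw [← QuotientGroup.mk_mul, sw_mul, tor1_apply]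
        refine psl_mk_eq_iff.2 ⟨a, ?_⟩
        have : (a : F)⁻¹ = a * a := inv_eq_of_mul_eq_one_right (by rw [← h3]; ring)
        ext i j; fin_cases i <;> fin_cases j <;> simp [dg, this, ← pow_three, h3]
      refine ⟨_, ⟨trivial, sw_nm _ _⟩, _, ⟨trivial, sw_nm _ _⟩, sw_sq _ _, sw_sq _ _,
        ⟨a, e.symm⟩, fun e' => ?_⟩
      rw [tor1_inj (e.symm.trans (e'.trans (map_one _).symm)), orderOf_one] at ha
      omega

omit [CharP F 2] in
theorem odd_split {A B P m : ℕ} (hA : Odd A) (hB : Odd B) (h : A * P = 2 ^ m * B) :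
    ∃ k, Odd k ∧ P = 2 ^ m * k := by
  obtain ⟨k, rfl⟩ : 2 ^ m ∣ P := (Nat.Coprime.pow_left m (Nat.coprime_two_left.2 hA)).dvd_of_dvd_mul_left
    ⟨B, h⟩
  rw [mul_left_comm, Nat.mul_right_inj (by positivity)] at h
  exact ⟨k, Odd.of_dvd_nat hB (Dvd.intro_left _ h), rfl⟩

theorem pl_top [Fintype F] {n : ℕ} (hn : 1 ≤ n) (hF : Fintype.card F = 2 ^ n) :
    Pl n (⊤ : Subgroup 𝐏) (PV F) (PW F) := by
  have hF' := Nat.card_eq_fintype_card.trans hF
  have e : ∀ u : Fin 3 → F, (TP u).map (invT (Fin 3) F : 𝐏 →* 𝐏) = TH u := fun u => by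
    rw [← invT_TH, Subgroup.map_map]
    convert Subgroup.map_id _
    exact MonoidHom.ext invT_invT
  have hc := S0243.result hF 3 (by norm_num)
  refine ⟨pl0 hF', ?_, hn, ?_, fun K _ h => ?_, fun z _ z' _ a b c d => ?_, ?_⟩
  · have := (pl0 hF').map (f := (invT (Fin 3) F : 𝐏 →* 𝐏)) (invT (Fin 3) F).injective
    rw [map_top_of_surjective (invT (Fin 3) F : 𝐏 →* 𝐏) (invT (Fin 3) F).surjective] at this
    convert this using 1
    · ext V
      exact ⟨by rintro ⟨u, hu, rfl⟩; exact ⟨_, ⟨u, hu, rfl⟩, e u⟩,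
        by rintro ⟨_, ⟨u, hu, rfl⟩, rfl⟩; exact ⟨u, hu, e u⟩⟩
    · ext V
      exact ⟨by rintro ⟨u, hu, rfl⟩; exact ⟨_, ⟨u, hu, rfl⟩, invT_TH u⟩,
        by rintro ⟨_, ⟨u, hu, rfl⟩, rfl⟩; exact ⟨u, hu, invT_TH u⟩⟩
  · have h2 : Even (2 ^ n) := (Nat.even_pow.2 ⟨even_two, by omega⟩)
    have h1 : 0 < 2 ^ n := by positivity
    rw [card_top, ← pow_mul]
    have o : ∀ j, j ≠ 0 → Odd ((2 ^ n) ^ j - 1) := fun j hj =>
      Nat.Even.sub_odd (Nat.pow_pos h1) (Nat.even_pow.2 ⟨h2, hj⟩) odd_one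
    refine odd_split ((Odd.of_dvd_nat (by decide : Odd 3) (Nat.gcd_dvd_left 3 (2 ^ n - 1))).mul
      (o 1 one_ne_zero)) (((o 3 (by omega)).mul (o 2 (by omega))).mul (o 1 (by omega))) ?_
    rw [pow_mul, pow_one, mul_assoc, hc]
    generalize 2 ^ n = q
    have e1 : q ^ 3 - q ^ 1 = q * (q ^ 2 - 1) := by rw [Nat.mul_sub]; congr 1 <;> ring
    have e2 : q ^ 3 - q ^ 2 = q ^ 2 * (q - 1) := by rw [Nat.mul_sub]; congr 1 <;> ring
    simp only [Fin.prod_univ_three, Fin.isValue, Fin.val_zero, pow_zero, Fin.val_one,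
      Fin.val_two]
    rw [e1, e2]; ring
  · have := S0249.result (F := F) 3 le_rfl
    exact (normalizer_eq_top_iff.1 (top_le_iff.1 h)).eq_bot_or_eq_top
  · obtain ⟨u, w, h, rfl⟩ := T_of_sq a
    obtain ⟨u', w', h', rfl⟩ := T_of_sq b
    obtain ⟨g, hg⟩ := isConj_iff.1 (isConj_T three (by rintro rfl; exact c (T_zero_left _))
      (by rintro rfl; exact c (T_zero_right _)) (by rintro rfl; exact d (T_zero_left _))
      (by rintro rfl; exact d (T_zero_right _)) h h')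
    exact ⟨g, trivial, hg⟩
  · rintro rfl
    simp [Fin.prod_univ_three] at hc
    rw [card_top]; omega

omit [CharP F 2] in
theorem exists_pl {G : Type*} [Group G] {N : Subgroup G} [Fintype F] {n : ℕ} (hn : 1 ≤ n)
    (hF : Fintype.card F = 2 ^ n) (e : N ≃* 𝐏) : ∃ 𝒱 𝒲, Pl n N 𝒱 𝒲 := by
  obtain ⟨p, hp⟩ := CharP.exists F
  obtain ⟨k, h1, h2⟩ := FiniteField.card F p
  obtain rfl : p = 2 := (Nat.prime_dvd_prime_iff_eq h1 Nat.prime_two).1
    (h1.dvd_of_dvd_pow (n := n) (by rw [← hF, h2]; exact dvd_pow_self p k.ne_zero))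
  have := (pl_top hn hF).map (f := N.subtype.comp e.symm.toMonoidHom)
    (N.subtype_injective.comp e.symm.injective)
  rw [← Subgroup.map_map, map_top_of_surjective _ e.symm.surjective, ← MonoidHom.range_eq_map,
    range_subtype] at this
  exact ⟨_, _, this⟩

end Cfsg.Agent.H32.P3
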